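import Mathlib
import Cfsg.Agent.Lib.Helper9.S3805.Defs

/-!
# S3805, package SetupA: diagonal generators of `N_G(T)`

No Sylow theory is needed: two lifts of distinct non-trivial elements of `N/T` are turned into
commuting involutions `u`, `z = (u v)^3`, and joint eigenvectors of `u`, `z` on `T` are produced
by the averaging `y ↦ y * (q y q⁻¹)`.
-/

set_option autoImplicit false

namespace Cfsg.Agent.Lib.Helper87.S3805

universe u

open Cfsg.Agent.Lib.Helper9.S3805

/-- Joint eigenvector: `p`, `q` commuting involutions normalizing the abelian group `T`,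
`p` not centralizing `y0 ∈ T`: there is `c ≠ 1` in `T` inverted by `p` and fixed or inverted by
`q`. -/
theorem joint_eig {G : Type u} [Group G] (T : Subgroup G)
    (hcomm : ∀ x ∈ T, ∀ y ∈ T, x * y = y * x)
    (p q : G) (hp : p ∈ Subgroup.normalizer (T : Set G)) (hq : q ∈ Subgroup.normalizer (T : Set G))
    (hpp : p * p = 1) (hqq : q * q = 1) (hpq : p * q = q * p)
    (hpc : p ∉ Subgroup.centralizer (T : Set G)) :
    ∃ c ∈ T, c ≠ 1 ∧ p * c * p⁻¹ = c⁻¹ ∧ (q * c * q⁻¹ = c ∨ q * c * q⁻¹ = c⁻¹) := by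
  have hpT : ∀ x ∈ T, p * x * p⁻¹ ∈ T := fun x hx =>
    (Subgroup.mem_normalizer_iff.mp hp x).mp hx
  have hqT : ∀ x ∈ T, q * x * q⁻¹ ∈ T := fun x hx =>
    (Subgroup.mem_normalizer_iff.mp hq x).mp hx
  have hp' : p⁻¹ = p := inv_eq_of_mul_eq_one_left hpp
  have hq' : q⁻¹ = q := inv_eq_of_mul_eq_one_left hqq
  have hppx : ∀ x : G, p * (p * x * p⁻¹) * p⁻¹ = x := by
    intro x
    rw [hp']
    calc p * (p * x * p) * p = (p * p) * x * (p * p) := by group
      _ = x := by rw [hpp, one_mul, mul_one]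
  have hqqx : ∀ x : G, q * (q * x * q⁻¹) * q⁻¹ = x := by
    intro x
    rw [hq']
    calc q * (q * x * q) * q = (q * q) * x * (q * q) := by group
      _ = x := by rw [hqq, one_mul, mul_one]
  have hpqx : ∀ x : G, p * (q * x * q⁻¹) * p⁻¹ = q * (p * x * p⁻¹) * q⁻¹ := by
    intro x
    calc p * (q * x * q⁻¹) * p⁻¹ = (p * q) * x * (p * q)⁻¹ := by group
      _ = (q * p) * x * (q * p)⁻¹ := by rw [hpq]
      _ = q * (p * x * p⁻¹) * q⁻¹ := by group
  -- an element of `T` not centralized by `p`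
  obtain ⟨y0, hy0, hne⟩ : ∃ y0 ∈ T, y0 * p ≠ p * y0 := by
    by_contra hcon
    push_neg at hcon
    exact hpc (Subgroup.mem_centralizer_iff.mpr fun h hh => hcon h hh)
  -- `y = y0 * (p y0 p⁻¹)⁻¹` is inverted by `p`
  obtain ⟨y, hy⟩ : ∃ y : G, y = y0 * (p * y0 * p⁻¹)⁻¹ := ⟨_, rfl⟩
  have hyT : y ∈ T := by
    rw [hy]
    exact T.mul_mem hy0 (T.inv_mem (hpT y0 hy0))
  have hy1 : y ≠ 1 := by
    intro h1
    rw [hy] at h1
    have h2 : y0 = p * y0 * p⁻¹ := mul_inv_eq_one.mp h1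
    apply hne
    have h3 : y0 * p = p * y0 * p⁻¹ * p := by rw [← h2]
    rw [h3]
    group
  have hpy : p * y * p⁻¹ = y⁻¹ := by
    have e1 : p * y * p⁻¹ = (p * y0 * p⁻¹) * (p * (p * y0 * p⁻¹) * p⁻¹)⁻¹ := by
      rw [hy]; group
    rw [e1, hppx, hy, mul_inv_rev, inv_inv]
  by_cases hplus : y * (q * y * q⁻¹) = 1
  · refine ⟨y, hyT, hy1, hpy, Or.inr ?_⟩
    exact (inv_eq_of_mul_eq_one_right hplus).symm
  · refine ⟨y * (q * y * q⁻¹), T.mul_mem hyT (hqT y hyT), hplus, ?_, Or.inl ?_⟩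
    · have e1 : p * (y * (q * y * q⁻¹)) * p⁻¹ = (p * y * p⁻¹) * (p * (q * y * q⁻¹) * p⁻¹) := by
        group
      rw [e1, hpqx, hpy, mul_inv_rev]
      have e2 : q * y⁻¹ * q⁻¹ = (q * y * q⁻¹)⁻¹ := by group
      rw [e2]
      exact hcomm _ (T.inv_mem hyT) _ (T.inv_mem (hqT y hyT))
    · have e1 : q * (y * (q * y * q⁻¹)) * q⁻¹ = (q * y * q⁻¹) * (q * (q * y * q⁻¹) * q⁻¹) := by
        group
      rw [e1, hqqx]
      exact hcomm _ (hqT y hyT) _ hyT

/-- Commuting involutions of `N_G(T)` outside `T` with product outside `T`. -/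
theorem exists_invs {G : Type u} [Group G] (T : Subgroup G)
    (hexp : ∀ a ∈ T, a ^ 3 = 1)
    [hn : (T.subgroupOf (Subgroup.normalizer (T : Set G))).Normal]
    (hK : IsKleinFour (↥(Subgroup.normalizer (T : Set G)) ⧸
      T.subgroupOf (Subgroup.normalizer (T : Set G)))) :
    ∃ u z : G, u ∈ Subgroup.normalizer (T : Set G) ∧ z ∈ Subgroup.normalizer (T : Set G) ∧
      u * u = 1 ∧ z * z = 1 ∧ u * z = z * u ∧ u ∉ T ∧ z ∉ T ∧ u * z ∉ T := by
  classical
  set N : Subgroup G := Subgroup.normalizer (T : Set G) with hN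
  set T' : Subgroup ↥N := T.subgroupOf N with hT'
  -- two distinct non-trivial classes
  obtain ⟨q1, q2, hq1, hq2, hq12⟩ : ∃ q1 q2 : ↥N ⧸ T', q1 ≠ 1 ∧ q2 ≠ 1 ∧ q1 ≠ q2 := by
    by_contra hcon
    push_neg at hcon
    have hcard : Nat.card (↥N ⧸ T') = 4 := hK.card_four
    haveI : Finite (↥N ⧸ T') := Nat.finite_of_card_ne_zero (by rw [hcard]; norm_num)
    haveI : Fintype (↥N ⧸ T') := Fintype.ofFinite _
    haveI : Nontrivial (↥N ⧸ T') := by
      rw [← Finite.one_lt_card_iff_nontrivial, hcard]; norm_num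
    obtain ⟨q, hq⟩ := exists_ne (1 : ↥N ⧸ T')
    have hsub : (Finset.univ : Finset (↥N ⧸ T')) ⊆ {1, q} := by
      intro x _
      by_cases hx : x = 1
      · simp [hx]
      · have := hcon x q hx hq
        simp [this]
    have h1 := Finset.card_le_card hsub
    have h2 : ({1, q} : Finset (↥N ⧸ T')).card ≤ 2 := Finset.card_le_two
    rw [Finset.card_univ, ← Nat.card_eq_fintype_card, hcard] at h1
    omega
  obtain ⟨n1, rfl⟩ := QuotientGroup.mk_surjective q1
  obtain ⟨n2, rfl⟩ := QuotientGroup.mk_surjective q2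
  have hqq : ∀ q : ↥N ⧸ T', q * q = 1 := fun q => hK.mul_self q
  have hq3 : ∀ q : ↥N ⧸ T', q ^ 3 = q := by
    intro q
    rw [pow_succ, pow_two, hqq, one_mul]
  have hmem : ∀ n : ↥N, (QuotientGroup.mk n : ↥N ⧸ T') ≠ 1 → (n : G) ∉ T := by
    intro n hne hmemT
    apply hne
    rw [QuotientGroup.eq_one_iff]
    exact Subgroup.mem_subgroupOf.mpr hmemT
  have h6 : ∀ n : ↥N, n ^ 6 = 1 := by
    intro n
    have h1 : (QuotientGroup.mk (n ^ 2) : ↥N ⧸ T') = 1 := by
      rw [QuotientGroup.mk_pow, pow_two, hqq]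
    have h2 : n ^ 2 ∈ T' := (QuotientGroup.eq_one_iff _).mp h1
    have h3 : ((n ^ 2 : ↥N) : G) ∈ T := Subgroup.mem_subgroupOf.mp h2
    have h4 := hexp _ h3
    apply Subtype.ext
    rw [show (6 : ℕ) = 2 * 3 from rfl, pow_mul]
    simpa using h4
  set u : ↥N := n1 ^ 3 with hu
  set v : ↥N := n2 ^ 3 with hv
  set z : ↥N := (u * v) ^ 3 with hz
  have huu : u * u = 1 := by rw [hu, ← pow_add]; exact h6 n1
  have hvv : v * v = 1 := by rw [hv, ← pow_add]; exact h6 n2
  have hzz : z * z = 1 := by rw [hz, ← pow_add]; exact h6 (u * v)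
  have hu' : u⁻¹ = u := inv_eq_of_mul_eq_one_left huu
  have hv' : v⁻¹ = v := inv_eq_of_mul_eq_one_left hvv
  have hz' : z⁻¹ = z := inv_eq_of_mul_eq_one_left hzz
  have hmu : (QuotientGroup.mk u : ↥N ⧸ T') = QuotientGroup.mk n1 := by
    rw [hu, QuotientGroup.mk_pow, hq3]
  have hmv : (QuotientGroup.mk v : ↥N ⧸ T') = QuotientGroup.mk n2 := by
    rw [hv, QuotientGroup.mk_pow, hq3]
  have hmz : (QuotientGroup.mk z : ↥N ⧸ T') = QuotientGroup.mk n1 * QuotientGroup.mk n2 := by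
    rw [hz, QuotientGroup.mk_pow, hq3, QuotientGroup.mk_mul, hmu, hmv]
  have hmuz : (QuotientGroup.mk (u * z) : ↥N ⧸ T') = QuotientGroup.mk n2 := by
    rw [QuotientGroup.mk_mul, hmz, hmu, ← mul_assoc, hqq, one_mul]
  have hcommN : u * z = z * u := by
    have h1 : u * (u * v) * u⁻¹ = (u * v)⁻¹ := by
      rw [mul_inv_rev, hu', hv', ← mul_assoc, huu, one_mul]
    have h2 : u * z * u⁻¹ = z := by
      rw [hz, ← conj_pow, h1, inv_pow, ← hz, hz']
    exact mul_inv_eq_iff_eq_mul.mp h2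
  have hz1 : (QuotientGroup.mk z : ↥N ⧸ T') ≠ 1 := by
    rw [hmz]
    intro h
    apply hq12
    have := eq_inv_of_mul_eq_one_left h
    rw [this]
    exact hK.inv_eq_self _
  refine ⟨(u : G), (z : G), u.2, z.2, ?_, ?_, ?_, ?_, ?_, ?_⟩
  · have := congrArg Subtype.val huu
    simpa using this
  · have := congrArg Subtype.val hzz
    simpa using this
  · have := congrArg Subtype.val hcommN
    simpa using this
  · exact hmem u (by rw [hmu]; exact hq1)
  · exact hmem z hz1
  · have := hmem (u * z) (by rw [hmuz]; exact hq2)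
    simpa using this

/-- Package SetupA. -/
theorem pkgSetupA : PkgSetupA.{u} := by
  intro G _ _ T hEA hcard hcent hn hK
  obtain ⟨hc, hexp⟩ := hEA
  have hcomm : ∀ x ∈ (T : Subgroup G), ∀ y ∈ (T : Subgroup G), x * y = y * x := by
    intro x hx y hy
    have := hc.is_comm.comm (⟨x, hx⟩ : ↥(T : Subgroup G)) ⟨y, hy⟩
    exact congrArg Subtype.val this
  obtain ⟨u, z, huN, hzN, huu, hzz, huz, huT, hzT, huzT⟩ :=
    exists_invs (T : Subgroup G) hexp hK
  have hcentT : ∀ g : G, g ∉ (T : Subgroup G) →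
      g ∉ Subgroup.centralizer (((T : Subgroup G)) : Set G) := by
    intro g hg hg'
    rw [hcent] at hg'
    exact hg hg'
  have huzN : u * z ∈ Subgroup.normalizer (((T : Subgroup G)) : Set G) :=
    Subgroup.mul_mem _ huN hzN
  have huzuz : (u * z) * (u * z) = 1 := by
    calc (u * z) * (u * z) = u * (z * u) * z := by group
      _ = u * (u * z) * z := by rw [huz]
      _ = (u * u) * (z * z) := by group
      _ = 1 := by rw [huu, hzz, one_mul]
  have hu' : u⁻¹ = u := inv_eq_of_mul_eq_one_left huu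
  have hz' : z⁻¹ = z := inv_eq_of_mul_eq_one_left hzz
  have huz_u : (u * z) * u = u * (u * z) := by
    calc (u * z) * u = u * (z * u) := by group
      _ = u * (u * z) := by rw [huz]
  have huz_z : (u * z) * z = z * (u * z) := by
    calc (u * z) * z = (z * u) * z := by rw [huz]
      _ = z * (u * z) := by group
  -- conjugation by a product
  have hconj : ∀ (g h x : G), (g * h) * x * (g * h)⁻¹ = g * (h * x * h⁻¹) * g⁻¹ := by
    intro g h x; group
  have hconjinv : ∀ (g x : G), g * x⁻¹ * g⁻¹ = (g * x * g⁻¹)⁻¹ := by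
    intro g x; group
  have hcardN : Nat.card (Subgroup.normalizer (((T : Subgroup G)) : Set G)) = 36 := by
    have h1 := Subgroup.card_eq_card_quotient_mul_card_subgroup
      ((T : Subgroup G).subgroupOf (Subgroup.normalizer (((T : Subgroup G)) : Set G)))
    have h2 : Nat.card ((T : Subgroup G).subgroupOf
        (Subgroup.normalizer (((T : Subgroup G)) : Set G))) = Nat.card (T : Subgroup G) :=
      Nat.card_congr (Subgroup.subgroupOfEquivOfLe Subgroup.le_normalizer).toEquiv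
    rw [h1, h2, hK.card_four, hcard]
  have hgen : ∀ (a b i j : G), a ∈ (T : Subgroup G) → b ∈ (T : Subgroup G) → a ≠ 1 → b ≠ 1 →
      i * i = 1 → j * j = 1 → i * j = j * i → i * a * i⁻¹ = a⁻¹ → i * b * i⁻¹ = b →
      j * a * j⁻¹ = a → j * b * j⁻¹ = b⁻¹ →
      i ∈ Subgroup.normalizer (((T : Subgroup G)) : Set G) →
      j ∈ Subgroup.normalizer (((T : Subgroup G)) : Set G) → HasGens (T : Subgroup G) := by
    intro a b i j ha hb ha1 hb1 hii hjj hij h1 h2 h3 h4 hiN hjN
    exact ⟨a, b, i, j, ha, hb, ha1, hb1, hexp a ha, hexp b hb, hcomm a ha b hb, hii, hjj, hij,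
      h1, h2, h3, h4, hiN, hjN, hcardN, hcard⟩
  -- first joint eigenvector
  obtain ⟨a, haT, ha1, hua, hza⟩ :=
    joint_eig (T : Subgroup G) hcomm u z huN hzN huu hzz huz (hcentT u huT)
  rcases hza with hza | hza
  · -- `z` fixes `a`
    obtain ⟨b, hbT, hb1, hzb, hub⟩ :=
      joint_eig (T : Subgroup G) hcomm z u hzN huN hzz huu huz.symm (hcentT z hzT)
    rcases hub with hub | hub
    · exact hgen a b u z haT hbT ha1 hb1 huu hzz huz hua hub hza hzb huN hzN
    · refine hgen a b (u * z) z haT hbT ha1 hb1 huzuz hzz huz_z ?_ ?_ hza hzb huzN hzN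
      · rw [hconj, hza, hua]
      · rw [hconj, hzb, hconjinv, hub, inv_inv]
  · -- `z` inverts `a`
    obtain ⟨b, hbT, hb1, huzb, hub⟩ :=
      joint_eig (T : Subgroup G) hcomm (u * z) u huzN huN huzuz huu huz_u (hcentT (u * z) huzT)
    have huza : (u * z) * a * (u * z)⁻¹ = a := by
      rw [hconj, hza, hconjinv, hua, inv_inv]
    rcases hub with hub | hub
    · exact hgen a b u (u * z) haT hbT ha1 hb1 huu huzuz huz_u.symm hua hub huza huzb huN huzN
    · refine hgen a b z (u * z) haT hbT ha1 hb1 hzz huzuz huz_z.symm hza ?_ huza huzb hzN huzN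
      -- `z = u * (u * z)`
      have e : z = u * (u * z) := by rw [← mul_assoc, huu, one_mul]
      calc z * b * z⁻¹ = (u * (u * z)) * b * (u * (u * z))⁻¹ := by rw [← e]
        _ = u * ((u * z) * b * (u * z)⁻¹) * u⁻¹ := hconj _ _ _
        _ = b := by rw [huzb, hconjinv, hub, inv_inv]

end Cfsg.Agent.Lib.Helper87.S3805
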